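import Cfsg.Agent.H588.TWG.Core
import Cfsg.Agent.Lib.Cores

/-!
# S3694, T10: the polynomial equation (helper588)

* `core` : if `g, h` anticommute, `h` and `g` (up to a scalar) lie in the preimage of `E = O_2(A) ∩ N`, and
  `U = (1 + t g)² / (1 - δ t²)` lies in the preimage of `A`, then `t (1 + δ t²) ((1 + δ t²)² + 4 δ t²) = 0`.
* `tt_fix` : a ring automorphism which induces the identity on `N` fixes the matrices of `S`.
-/

set_option autoImplicit false

namespace Cfsg.Agent.H588.TWG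

open Matrix Subgroup Cfsg.Agent.H607.TW

universe u

section ring

variable {F : Type} [Field F] {n : ℕ}

local notation "R" => Matrix (Fin n) (Fin n) F

/-- `U_t = (1 + t g)² / c` -/
def uu (g : R) (c t : F) : R := c⁻¹ • ((1 + t • g) * (1 + t • g))

theorem one_mul_one {g : R} {δ : F} (hg : g * g = δ • (1 : R)) (t : F) :
    (1 + t • g) * (1 + (-t) • g) = (1 - δ * t ^ 2) • (1 : R) := by
  have h1 : (1 + t • g) * (1 + (-t) • g) = 1 - (t * t) • (g * g) := by
    simp only [add_mul, mul_add, one_mul, mul_one, smul_mul_smul_comm, neg_smul, mul_neg]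
    abel
  rw [h1, hg, smul_smul, sub_smul, one_smul]
  congr 2
  ring

theorem comm_one {g : R} (s t : F) : (1 + s • g) * (1 + t • g) = (1 + t • g) * (1 + s • g) := by
  simp only [add_mul, mul_add, one_mul, mul_one, smul_mul_smul_comm, mul_comm s t]
  abel

theorem uu_mul_neg {g : R} {δ : F} (hg : g * g = δ • (1 : R)) {t : F} (ht : 1 - δ * t ^ 2 ≠ 0) :
    uu g (1 - δ * t ^ 2) t * uu g (1 - δ * t ^ 2) (-t) = 1 := by
  have h1 := one_mul_one hg t
  unfold uu
  rw [smul_mul_smul_comm]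
  have h2 : (1 + t • g) * (1 + t • g) * ((1 + (-t) • g) * (1 + (-t) • g)) =
      ((1 - δ * t ^ 2) * (1 - δ * t ^ 2)) • (1 : R) := by
    calc (1 + t • g) * (1 + t • g) * ((1 + (-t) • g) * (1 + (-t) • g))
        = (1 + t • g) * ((1 + t • g) * (1 + (-t) • g)) * (1 + (-t) • g) := by simp only [mul_assoc]
      _ = ((1 + t • g) * (1 + (-t) • g)) * ((1 - δ * t ^ 2) • (1 : R)) := by
          rw [h1, mul_smul_comm, mul_one, smul_mul_assoc, mul_smul_comm, mul_one, h1]
      _ = _ := by rw [h1, smul_mul_smul_comm, one_mul]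
  rw [h2, smul_smul]
  have h3 : (1 - δ * t ^ 2)⁻¹ * (1 - δ * t ^ 2)⁻¹ * ((1 - δ * t ^ 2) * (1 - δ * t ^ 2)) = 1 := by
    field_simp
  rw [h3, one_smul]

theorem uu_neg_mul {g : R} {δ : F} (hg : g * g = δ • (1 : R)) {t : F} (ht : 1 - δ * t ^ 2 ≠ 0) :
    uu g (1 - δ * t ^ 2) (-t) * uu g (1 - δ * t ^ 2) t = 1 := by
  have h1 := uu_mul_neg hg (t := -t) (by rw [neg_sq]; exact ht)
  rwa [neg_sq, neg_neg] at h1

theorem one_conj {g h : R} (hgh : g * h = -(h * g)) (t : F) : (1 + t • g) * h = h * (1 + (-t) • g) := by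
  rw [add_mul, mul_add, one_mul, mul_one, smul_mul_assoc, hgh, mul_smul_comm, smul_neg, neg_smul]

/-- `h U_t⁻¹ = U_t h` -/
theorem uu_conj {g h : R} (hgh : g * h = -(h * g)) (c t : F) : uu g c t * h = h * uu g c (-t) := by
  unfold uu
  rw [smul_mul_assoc, mul_smul_comm, mul_assoc, one_conj hgh, ← mul_assoc, one_conj hgh, mul_assoc]

/-- `U_t²` -/
theorem uu_sq {g : R} {δ : F} (hg : g * g = δ • (1 : R)) (c t : F) :
    uu g c t * uu g c t = (c⁻¹ * c⁻¹ * ((1 + δ * t ^ 2) ^ 2 + 4 * δ * t ^ 2)) • (1 : R) +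
      (c⁻¹ * c⁻¹ * (4 * t * (1 + δ * t ^ 2))) • g := by
  have h1 : (1 + t • g) * (1 + t • g) = (1 + δ * t ^ 2) • (1 : R) + (2 * t) • g := by
    simp only [add_mul, mul_add, one_mul, mul_one, smul_mul_smul_comm, hg, smul_smul]
    rw [add_smul, one_smul, two_mul, add_smul]
    have : t * t * δ = δ * t ^ 2 := by ring
    rw [this]
    abel
  have h2 : ∀ a b : F, (a • (1 : R) + b • g) * (a • (1 : R) + b • g) = (a * a + b * b * δ) • (1 : R) + (2 * a * b) • g := by
    intro a b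
    rw [add_mul, mul_add, mul_add, smul_mul_smul_comm, smul_mul_smul_comm, smul_mul_smul_comm, smul_mul_smul_comm, one_mul,
      mul_one, hg, smul_smul, one_mul, add_smul]
    have : 2 * a * b = a * b + b * a := by ring
    rw [this, add_smul]
    abel
  unfold uu
  rw [h1, smul_mul_smul_comm, h2, smul_add, smul_smul, smul_smul]
  congr 2 <;> ring

end ring

section core

variable {G : Type u} [Group G] {N A : Subgroup G} {F : Type} [Field F] {n : ℕ} {S : Type} [Group S]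
  {ι : S →* Matrix.GeneralLinearGroup (Fin n) F} {π : S →* G}

local notation "R" => Matrix (Fin n) (Fin n) F

theorem mt_mul (s t : S) : mt ι (s * t) = mt ι s * mt ι t := by
  unfold Cfsg.Agent.H607.TW.mt
  rw [map_mul, Units.val_mul]

theorem mt_one : mt ι (1 : S) = 1 := by
  unfold Cfsg.Agent.H607.TW.mt
  rw [map_one, Units.val_one]

theorem mt_mul_inv (s : S) : mt ι s * mt ι s⁻¹ = 1 := by rw [← mt_mul, mul_inv_cancel, mt_one]

theorem mt_inv_mul (s : S) : mt ι s⁻¹ * mt ι s = 1 := by rw [← mt_mul, inv_mul_cancel, mt_one]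

theorem mt_inj (hM : Model N ι π) {s t : S} (h : mt ι s = mt ι t) : s = t :=
  hM.inj (Units.ext h)

theorem mt_inv_eq {s : S} {x : R} (h : mt ι s * x = 1) : mt ι s⁻¹ = x := by
  calc mt ι s⁻¹ = mt ι s⁻¹ * (mt ι s * x) := by rw [h, mul_one]
    _ = x := by rw [← mul_assoc, mt_inv_mul, one_mul]

/-- two elements with the same image in `N` differ by a scalar -/
theorem smul_of_eq (hM : Model N ι π) {s t : S} (h : π s = π t) : ∃ c : F, mt ι s = c • mt ι t := by
  have h1 : π (s * t⁻¹) = 1 := by rw [map_mul, map_inv, h, mul_inv_cancel]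
  obtain ⟨c, hc⟩ := (hM.ker _).1 h1
  refine ⟨c, ?_⟩
  calc mt ι s = mt ι (s * t⁻¹) * mt ι t := by rw [← mt_mul]; group
    _ = _ := by rw [hc, smul_mul_assoc, one_mul]

theorem OO_le (r : ℕ) (A : Subgroup G) : OO r A ≤ A := by
  rintro _ ⟨x, -, rfl⟩
  exact x.2

theorem OO_conj {r : ℕ} {A : Subgroup G} {a x : G} (ha : a ∈ A) (hx : x ∈ OO r A) : a * x * a⁻¹ ∈ OO r A := by
  obtain ⟨y, hy, rfl⟩ := hx
  have hn : (Cfsg.pCore r ↥A).Normal := Cfsg.Agent.Lib.Cores.pCore_normal r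
  exact ⟨⟨a, ha⟩ * y * ⟨a, ha⟩⁻¹, hn.conj_mem y hy _, rfl⟩

/-- **The core.** -/
theorem core (h2 : (2 : F) ≠ 0) (hn : N.Normal) (hM : Model N ι π)
    (hcomm : ∀ x ∈ OO 2 A ⊓ N, ∀ y ∈ OO 2 A, x * y = y * x) {g h : R} {δ : F} (hg : g * g = δ • (1 : R)) (hδ : δ ≠ 0)
    (hgh : g * h = -(h * g)) {s : S} (hs : π s ∈ OO 2 A ⊓ N) (hsh : mt ι s = h) {t : F} (ht : 1 - δ * t ^ 2 ≠ 0)
    {u : S} (hu : π u ∈ A) (huu : mt ι u = uu g (1 - δ * t ^ 2) t) :
    t * (1 + δ * t ^ 2) * ((1 + δ * t ^ 2) ^ 2 + 4 * δ * t ^ 2) = 0 := by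
  have hui : mt ι u⁻¹ = uu g (1 - δ * t ^ 2) (-t) := mt_inv_eq (by rw [huu]; exact uu_mul_neg hg ht)
  have h1 : u * s * u⁻¹ = u * u * s := by
    apply mt_inj hM
    rw [mt_mul, mt_mul, mt_mul, mt_mul, hui, huu, hsh, mul_assoc, ← uu_conj hgh, mul_assoc]
  have h3 : π (u * s * u⁻¹) ∈ OO 2 A ⊓ N := by
    rw [map_mul, map_mul, map_inv]
    exact ⟨OO_conj hu hs.1, hn.conj_mem _ hs.2 _⟩
  have h4 : π (u * u) ∈ OO 2 A ⊓ N := by
    have h5 : π (u * u) = π (u * s * u⁻¹) * (π s)⁻¹ := by rw [h1, map_mul _ (u * u) s]; group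
    rw [h5]
    exact mul_mem h3 (inv_mem hs)
  obtain ⟨c, hc⟩ := smul_of_eq hM (s := u * u * s) (t := s * (u * u)) (by
    rw [map_mul, map_mul π s (u * u)]; exact hcomm _ h4 _ hs.1)
  rw [mt_mul, mt_mul, mt_mul, mt_mul, huu, hsh, uu_sq hg] at hc
  set α := (1 - δ * t ^ 2)⁻¹ * (1 - δ * t ^ 2)⁻¹ * ((1 + δ * t ^ 2) ^ 2 + 4 * δ * t ^ 2) with hα
  set β := (1 - δ * t ^ 2)⁻¹ * (1 - δ * t ^ 2)⁻¹ * (4 * t * (1 + δ * t ^ 2)) with hβ
  have hinv : h * mt ι s⁻¹ = 1 := by rw [← hsh, mt_mul_inv]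
  have h6 : (α - c * α) • (1 : R) + (β + c * β) • g = 0 := by
    have h7 : ((α - c * α) • (1 : R) + (β + c * β) • g) * h = 0 := by
      have h8 : h * g = -(g * h) := by rw [hgh, neg_neg]
      rw [add_mul, mul_add, smul_add, smul_mul_assoc, one_mul, smul_mul_assoc, mul_smul_comm, mul_one, mul_smul_comm, h8,
        smul_smul, smul_neg, smul_neg, smul_smul] at hc
      rw [add_mul, smul_mul_assoc, one_mul, smul_mul_assoc, sub_smul, add_smul]
      have h9 : α • h + β • (g * h) - ((c * α) • h + -((c * β) • (g * h))) = 0 := by rw [hc, sub_self]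
      rw [← h9]
      abel
    calc (α - c * α) • (1 : R) + (β + c * β) • g
        = ((α - c * α) • (1 : R) + (β + c * β) • g) * h * mt ι s⁻¹ := by rw [mul_assoc, hinv, mul_one]
      _ = 0 := by rw [h7, zero_mul]
  have hn0 : (1 : R) ≠ 0 := by
    intro h0
    have := hM.two
    have h9 := congrArg (fun M : R => M ⟨0, by omega⟩ ⟨0, by omega⟩) h0
    simp at h9
  have hh0 : h ≠ 0 := by
    intro h0
    rw [h0, zero_mul] at hinv
    exact hn0 hinv.symm
  -- `g` is not a scalar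
  have hgs : ∀ e : F, g ≠ e • (1 : R) := by
    intro e he
    have h9 : (2 * e) • h = 0 := by
      rw [he, smul_mul_assoc, one_mul, mul_smul_comm, mul_one] at hgh
      rw [two_mul, add_smul]
      nth_rewrite 1 [hgh]
      simp
    rcases smul_eq_zero.1 h9 with h10 | h10
    · have h11 : e = 0 := (mul_eq_zero.1 h10).resolve_left h2
      rw [he, h11, zero_smul, zero_mul] at hg
      rcases smul_eq_zero.1 hg.symm with h12 | h12
      · exact hδ h12
      · exact hn0 h12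
    · exact hh0 h10
  have h10 : β + c * β = 0 := by
    by_contra hne
    apply hgs (-(β + c * β)⁻¹ * (α - c * α))
    have h11 : (β + c * β)⁻¹ • ((α - c * α) • (1 : R) + (β + c * β) • g) = 0 := by rw [h6, smul_zero]
    rw [smul_add, smul_smul, smul_smul, inv_mul_cancel₀ hne, one_smul] at h11
    rw [neg_mul, neg_smul]
    exact eq_neg_of_add_eq_zero_right h11
  have h11 : α - c * α = 0 := by
    rw [h10, zero_smul, add_zero] at h6
    exact (smul_eq_zero.1 h6).resolve_right hn0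
  have h12 : α * β = 0 := by
    have e1 : α * (1 - c) = 0 := by linear_combination h11
    have e2 : β * (1 + c) = 0 := by linear_combination h10
    rcases mul_eq_zero.1 e1 with h13 | h13
    · rw [h13, zero_mul]
    · rcases mul_eq_zero.1 e2 with h14 | h14
      · rw [h14, mul_zero]
      · exact absurd (by linear_combination h13 + h14) h2
  have hci : (1 - δ * t ^ 2)⁻¹ ≠ 0 := inv_ne_zero ht
  have h4' : (4 : F) ≠ 0 := by
    have : (4 : F) = 2 * 2 := by norm_num
    rw [this]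
    exact mul_ne_zero h2 h2
  have h13 : ((1 - δ * t ^ 2)⁻¹ * (1 - δ * t ^ 2)⁻¹ * (1 - δ * t ^ 2)⁻¹ * (1 - δ * t ^ 2)⁻¹ * 4) *
      (t * (1 + δ * t ^ 2) * ((1 + δ * t ^ 2) ^ 2 + 4 * δ * t ^ 2)) = 0 := by
    rw [hα, hβ] at h12
    linear_combination h12
  refine (mul_eq_zero.1 h13).resolve_left ?_
  exact mul_ne_zero (mul_ne_zero (mul_ne_zero (mul_ne_zero hci hci) hci) hci) h4'

/-- A ring automorphism inducing the identity on `N` fixes the matrices of `S`. -/
theorem tt_fix (hM : Model N ι π) (T : R → R) (hT : ∀ x y, T (x * y) = T x * T y)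
    (hl : ∀ s : S, ∃ s' : S, mt ι s' = T (mt ι s) ∧ π s' = π s) (s : S) : T (mt ι s) = mt ι s := by
  choose f hf hf' using hl
  let φ : S →* S :=
    { toFun := f
      map_one' := by
        have h1 : f 1 * f 1 = f 1 := by
          apply mt_inj hM
          rw [mt_mul, hf, ← hT, ← mt_mul, mul_one]
        exact mul_eq_left.1 h1
      map_mul' := by
        intro a b
        apply mt_inj hM
        rw [mt_mul, hf, hf, hf, ← hT, ← mt_mul] }
  have h1 := fix_of_perfect hM.perfect φ (fun s => by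
    obtain ⟨c, hc⟩ := smul_of_eq hM (hf' s)
    refine ⟨f s * s⁻¹, fun t => ?_, ?_⟩
    · apply mt_inj hM
      have h2 : mt ι (f s * s⁻¹) = c • (1 : R) := by rw [mt_mul, hc, smul_mul_assoc, mt_mul_inv]
      rw [mt_mul (f s * s⁻¹) t, mt_mul t (f s * s⁻¹), h2, smul_mul_assoc, mul_smul_comm, one_mul, mul_one]
    · change f s = f s * s⁻¹ * s
      group) s
  rw [← hf]
  change mt ι (φ s) = _
  rw [h1]

end core

end Cfsg.Agent.H588.TWG
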