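import Cfsg.Agent.H607.TW.Defs

/-!
# S3694, T10: involutory graph automorphisms in the extraspecial case, the core (helper588)

* `card_fix_le` : the elements `t` of a subset for which `s_t = (1 + t g)(1 - t g)⁻¹` normalizes the extraspecial group: at most 9;
* `card_le_sq` : `|F| ≤ |Fix σ|²` for an involutory automorphism;
* `fix_of_perfect` : a ring automorphism inducing the identity on `S / scalars` fixes the elements of `S`;
* `core` : the polynomial equation for `t`.
-/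

set_option autoImplicit false

namespace Cfsg.Agent.H588.TWG

open Matrix Subgroup Cfsg.Agent.H607.TW

universe u

section field

variable {F : Type} [Field F] [Fintype F]

open Polynomial in
/-- the roots of a polynomial of degree nine -/
theorem card_fix_le {σ : F ≃+* F} (δ : F)
    (h : ∀ t : F, σ t = t → 1 - δ * t ^ 2 ≠ 0 →
      t * (1 + δ * t ^ 2) * ((1 + δ * t ^ 2) ^ 2 + 4 * δ * t ^ 2) = 0) :
    Nat.card {t : F // σ t = t} ≤ 9 := by
  classical
  let P : F[X] := (X * (1 + C δ * X ^ 2) * ((1 + C δ * X ^ 2) ^ 2 + 4 * C δ * X ^ 2)) * (1 - C δ * X ^ 2)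
  have hP0 : P ≠ 0 := by
    have h1 : P = X * ((1 + C δ * X ^ 2) * ((1 + C δ * X ^ 2) ^ 2 + 4 * C δ * X ^ 2) * (1 - C δ * X ^ 2)) := by
      change (X * (1 + C δ * X ^ 2) * ((1 + C δ * X ^ 2) ^ 2 + 4 * C δ * X ^ 2)) * (1 - C δ * X ^ 2) = _
      ring
    rw [h1]
    refine mul_ne_zero X_ne_zero ?_
    intro h2
    have h3 := congrArg (Polynomial.eval 0) h2
    simp at h3
  have hdeg : P.natDegree ≤ 9 := by
    change (((X * (1 + C δ * X ^ 2) * ((1 + C δ * X ^ 2) ^ 2 + 4 * C δ * X ^ 2)) * (1 - C δ * X ^ 2)) : F[X]).natDegree ≤ 9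
    compute_degree
  have hroot : ∀ t : F, σ t = t → t ∈ P.roots.toFinset := by
    intro t ht
    rw [Multiset.mem_toFinset, mem_roots hP0, IsRoot.def]
    change (((X * (1 + C δ * X ^ 2) * ((1 + C δ * X ^ 2) ^ 2 + 4 * C δ * X ^ 2)) * (1 - C δ * X ^ 2)) : F[X]).eval t = 0
    by_cases h0 : 1 - δ * t ^ 2 = 0
    · simp only [eval_mul, eval_sub, eval_one, eval_C, eval_pow, eval_X]
      rw [h0, mul_zero]
    · have h1 := h t ht h0
      simp only [eval_mul, eval_sub, eval_one, eval_C, eval_pow, eval_X, eval_add, eval_ofNat]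
      rw [h1, zero_mul]
  calc Nat.card {t : F // σ t = t} ≤ Nat.card (P.roots.toFinset : Finset F) :=
        Nat.card_le_card_of_injective (fun t => (⟨t.1, hroot t.1 t.2⟩ : (P.roots.toFinset : Finset F))) fun a b hab => by
          have := congrArg Subtype.val hab
          exact Subtype.ext this
    _ = P.roots.toFinset.card := by rw [Nat.card_eq_fintype_card, Fintype.card_coe]
    _ ≤ Multiset.card P.roots := Multiset.toFinset_card_le _
    _ ≤ P.natDegree := P.card_roots'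
    _ ≤ 9 := hdeg

/-- `|F| ≤ |Fix σ|²` -/
theorem card_le_sq {σ : F ≃+* F} (h2 : (2 : F) ≠ 0) (hσ : ∀ c, σ (σ c) = c) :
    Nat.card F ≤ Nat.card {t : F // σ t = t} * Nat.card {t : F // σ t = t} := by
  classical
  obtain ⟨w, hw⟩ : ∃ w : F, ∀ c : F, σ (w * (c - σ c)) = w * (c - σ c) ∧ (w = 0 → ∀ c, σ c = c) := by
    by_cases h : ∀ c, σ c = c
    · exact ⟨0, fun c => ⟨by simp, fun _ => h⟩⟩
    · push Not at h
      obtain ⟨y, hy⟩ := h
      refine ⟨y - σ y, fun c => ⟨?_, fun h0 => absurd (sub_eq_zero.1 h0).symm hy⟩⟩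
      rw [map_mul, map_sub, map_sub, hσ, hσ]
      ring
  rw [← Nat.card_prod]
  refine Nat.card_le_card_of_injective (fun c : F =>
    ((⟨c + σ c, by rw [map_add, hσ, add_comm]⟩, ⟨w * (c - σ c), (hw c).1⟩) : {t : F // σ t = t} × {t : F // σ t = t})) ?_
  intro a b hab
  have h1 : a + σ a = b + σ b := congrArg (fun p => (p.1 : F)) hab
  have h3 : w * (a - σ a) = w * (b - σ b) := congrArg (fun p => (p.2 : F)) hab
  by_cases hw0 : w = 0
  · have h4 := (hw 0).2 hw0
    rw [h4, h4] at h1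
    have h5 : (2 : F) * a = 2 * b := by linear_combination h1
    exact mul_left_cancel₀ h2 h5
  · have h4 := mul_left_cancel₀ hw0 h3
    have h5 : (2 : F) * a = 2 * b := by linear_combination h1 + h4
    exact mul_left_cancel₀ h2 h5

end field

section perfect

/-- a homomorphism `s ↦ z_s s` with `z_s` central fixes a perfect group -/
theorem fix_of_perfect {S : Type u} [Group S] (hp : commutator S = ⊤) (f : S →* S)
    (hf : ∀ s, ∃ z : S, (∀ t : S, z * t = t * z) ∧ f s = z * s) (s : S) : f s = s := by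
  have h1 : commutator S ≤ MonoidHom.eqLocus f (MonoidHom.id S) := by
    rw [commutator_def, commutator_le]
    intro a _ b _
    change f (a * b * a⁻¹ * b⁻¹) = a * b * a⁻¹ * b⁻¹
    obtain ⟨y, hy, ha⟩ := hf a
    obtain ⟨z, hz, hb⟩ := hf b
    rw [map_mul, map_mul, map_mul, map_inv, map_inv, ha, hb]
    have e1 : y * a * (z * b) * (y * a)⁻¹ * (z * b)⁻¹ = (y * (a * (z * b))) * (a⁻¹ * y⁻¹) * (b⁻¹ * z⁻¹) := by group
    have e2 : y * (a * (z * b)) = (a * (z * b)) * y := hy _
    have e3 : a * (z * b) = z * (a * b) := by rw [← mul_assoc, ← hz a, mul_assoc]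
    have e4 : a * b * (a⁻¹ * b⁻¹) * z = z * (a * b * (a⁻¹ * b⁻¹)) := (hz _).symm
    rw [e1, e2, e3]
    calc z * (a * b) * y * (a⁻¹ * y⁻¹) * (b⁻¹ * z⁻¹) = z * (a * b) * (y * a⁻¹) * y⁻¹ * b⁻¹ * z⁻¹ := by group
      _ = z * (a * b) * (a⁻¹ * y) * y⁻¹ * b⁻¹ * z⁻¹ := by rw [hy a⁻¹]
      _ = z * (a * b * (a⁻¹ * b⁻¹)) * z⁻¹ := by group
      _ = a * b * (a⁻¹ * b⁻¹) * z * z⁻¹ := by rw [e4]
      _ = _ := by group
  rw [hp] at h1
  exact h1 (mem_top s)

end perfect

end Cfsg.Agent.H588.TWG
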