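import Cfsg.Agent.H588.TWG.Alg

/-!
# S3694, T10, the linear case (helper588)

`graph_q_sl` : `x` an involutory graph (or graph-field) automorphism of `PSL_n(F)` centralizing `A ∩ N`, `A ∩ N` extraspecial
type: `|F| ≤ 81`.
-/

set_option autoImplicit false

namespace Cfsg.Agent.H588.TWG

open Matrix Subgroup Cfsg.Agent.H607.TW

universe u

section tau

variable {F : Type} [Field F] {n : ℕ} (B : Matrix.GeneralLinearGroup (Fin n) F) (σ : F ≃+* F)

local notation "R" => Matrix (Fin n) (Fin n) F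

theorem coe_inv_mul : ((B⁻¹ : Matrix.GeneralLinearGroup (Fin n) F) : R) * (B : R) = 1 := by
  rw [← Units.val_mul, inv_mul_cancel, Units.val_one]

theorem coe_mul_inv : (B : R) * ((B⁻¹ : Matrix.GeneralLinearGroup (Fin n) F) : R) = 1 := by
  rw [← Units.val_mul, mul_inv_cancel, Units.val_one]

theorem tauP_mul (x y : R) : tauP B σ (x * y) = tauP B σ x * tauP B σ y := by
  rw [tauP_apply, tauP_apply, tauP_apply]
  have h1 : (x * y).map σ = x.map σ * y.map σ := Matrix.map_mul
  rw [h1]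
  calc (B : R) * (x.map σ * y.map σ) * ((B⁻¹ : Matrix.GeneralLinearGroup (Fin n) F) : R)
      = (B : R) * x.map σ * (((B⁻¹ : Matrix.GeneralLinearGroup (Fin n) F) : R) * (B : R)) * y.map σ *
        ((B⁻¹ : Matrix.GeneralLinearGroup (Fin n) F) : R) := by rw [coe_inv_mul]; simp only [mul_assoc, mul_one]
    _ = _ := by simp only [mul_assoc]

theorem map_smul' (c : F) (x : R) : (c • x).map σ = σ c • x.map σ := by
  ext i j
  simp

theorem tauP_smul (c : F) (x : R) : tauP B σ (c • x) = σ c • tauP B σ x := by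
  rw [tauP_apply, tauP_apply, map_smul', mul_smul_comm, smul_mul_assoc]

theorem tauP_one : tauP B σ (1 : R) = 1 := by
  rw [tauP_apply, Matrix.map_one _ (map_zero σ) (map_one σ), mul_one, coe_mul_inv]

theorem tauM_eq (x : R) : tauM B σ x = tauP B σ xᵀ := rfl

theorem tauM_mul (x y : R) : tauM B σ (x * y) = tauM B σ y * tauM B σ x := by
  rw [tauM_eq, tauM_eq, tauM_eq, Matrix.transpose_mul, tauP_mul]

theorem tauM_smul (c : F) (x : R) : tauM B σ (c • x) = σ c • tauM B σ x := by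
  rw [tauM_eq, tauM_eq, Matrix.transpose_smul, tauP_smul]

theorem tauM_one : tauM B σ (1 : R) = 1 := by
  rw [tauM_eq, Matrix.transpose_one, tauP_one]

end tau

section ind

variable {G : Type u} [Group G] {N A : Subgroup G} {F : Type} [Field F] {n : ℕ} {S : Type} [Group S]
  {ι : S →* Matrix.GeneralLinearGroup (Fin n) F} {π : S →* G}

local notation "R" => Matrix (Fin n) (Fin n) F

theorem not_comm_mat (hn : 2 ≤ n) (h : ∀ x y : R, x * y = y * x) : False := by
  let i : Fin n := ⟨0, by omega⟩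
  let j : Fin n := ⟨1, by omega⟩
  have hij : i ≠ j := by
    intro h1
    have := congrArg Fin.val h1
    simp [i, j] at this
  have h1 := h (Matrix.single i j 1) (Matrix.single j i 1)
  rw [Matrix.single_mul_single_same, Matrix.single_mul_single_same] at h1
  have h2 := congrFun (congrFun h1 i) i
  simp [hij.symm] at h2

theorem ind_tauM (hn : 2 ≤ n) {B : Matrix.GeneralLinearGroup (Fin n) F} {σ : F ≃+* F} {g : G}
    (h : Ind ι π g (tauM B σ)) (s : S) : ∃ s' : S, mt ι s' = tauM B σ (mt ι s) ∧ (π s')⁻¹ = g * π s * g⁻¹ := by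
  rcases h with ⟨h1, -⟩ | ⟨-, h2⟩
  · exfalso
    refine not_comm_mat (F := F) hn fun x y => (tauM B σ).injective ?_
    rw [h1, tauM_mul]
  · exact h2 s

theorem ind_tauP (hn : 2 ≤ n) {B : Matrix.GeneralLinearGroup (Fin n) F} {σ : F ≃+* F} {g : G}
    (h : Ind ι π g (tauP B σ)) (s : S) : ∃ s' : S, mt ι s' = tauP B σ (mt ι s) ∧ π s' = g * π s * g⁻¹ := by
  rcases h with ⟨-, h2⟩ | ⟨h1, -⟩
  · exact h2 s
  · exfalso
    refine not_comm_mat (F := F) hn fun x y => (tauP B σ).injective ?_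
    rw [h1, tauP_mul]

/-- the square of an element of the preimage of an elementary abelian `2`-group -/
theorem sq_scal (hM : Model N ι π) {s : S} (h : π s ^ 2 = 1) : ∃ δ : F, mt ι s * mt ι s = δ • (1 : R) := by
  obtain ⟨c, hc⟩ := (hM.ker (s * s)).1 (by rw [map_mul, ← pow_two, h])
  exact ⟨c, by rw [← mt_mul, hc]⟩

theorem one_ne_zero_mat (hn : 2 ≤ n) : (1 : R) ≠ 0 := by
  intro h0
  have h9 := congrArg (fun M : R => M ⟨0, by omega⟩ ⟨0, by omega⟩) h0
  simp at h9

theorem mt_ne_zero (hn : 2 ≤ n) (s : S) : mt ι s ≠ 0 := by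
  intro h
  have h1 := mt_mul_inv (ι := ι) s
  rw [h, zero_mul] at h1
  exact one_ne_zero_mat hn h1.symm

theorem scal_inj (hn : 2 ≤ n) {a b : F} (s : S) (h : a • mt ι s = b • mt ι s) : a = b :=
  smul_left_injective F (mt_ne_zero hn s) h

/-- anticommuting elements -/
theorem anti (hM : Model N ι π) {s t : S} (hs : π s ^ 2 = 1) (hst : π s * π t = π t * π s)
    (hne : s * t ≠ t * s) : mt ι s * mt ι t = -(mt ι t * mt ι s) := by
  obtain ⟨c, hc⟩ := smul_of_eq hM (s := s * t) (t := t * s) (by rw [map_mul, map_mul, hst])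
  obtain ⟨δ, hδ⟩ := sq_scal hM hs
  have hδ0 : δ ≠ 0 := by
    rintro rfl
    rw [zero_smul, ← mt_mul] at hδ
    exact mt_ne_zero hM.two _ hδ
  rw [mt_mul, mt_mul] at hc
  have h3 : δ • mt ι t = (c * c * δ) • mt ι t := by
    calc δ • mt ι t = mt ι s * (mt ι s * mt ι t) := by rw [← mul_assoc, hδ, smul_mul_assoc, one_mul]
      _ = c • (mt ι s * mt ι t * mt ι s) := by
          nth_rewrite 1 [hc]
          rw [mul_smul_comm, ← mul_assoc]
      _ = (c * c) • (mt ι t * (mt ι s * mt ι s)) := by rw [hc, smul_mul_assoc, smul_smul, mul_assoc]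
      _ = _ := by rw [hδ, mul_smul_comm, mul_one, smul_smul]
  have h4 := scal_inj hM.two t h3
  have h5 : δ * ((1 - c) * (1 + c)) = 0 := by linear_combination h4
  have h6 := (mul_eq_zero.1 h5).resolve_left hδ0
  rcases mul_eq_zero.1 h6 with h7 | h7
  · exfalso
    apply hne
    apply mt_inj hM
    rw [mt_mul, mt_mul, hc]
    have : c = 1 := by linear_combination -h7
    rw [this, one_smul]
  · have : c = -1 := by linear_combination h7
    rw [hc, this, neg_one_smul]

/-- Hilbert 90 for an involutory automorphism -/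
theorem hilbert {σ : F ≃+* F} {c : F} (hc : σ c * c = 1) (h : c ≠ 1 ∨ σ ≠ 1) :
    ∃ l : F, l ≠ 0 ∧ ((∀ y, σ (σ y) = y) → σ l * c = -l) := by
  by_cases h1 : c = 1
  · have h2 : σ ≠ 1 := h.resolve_left fun h3 => h3 h1
    obtain ⟨y, hy⟩ : ∃ y, σ y ≠ y := by
      by_contra hcon
      push Not at hcon
      exact h2 (RingEquiv.ext hcon)
    refine ⟨y - σ y, fun h3 => hy (sub_eq_zero.1 h3).symm, fun hσ => ?_⟩
    rw [map_sub, hσ, h1]
    ring
  · refine ⟨1 - c, fun h3 => h1 (sub_eq_zero.1 h3).symm, fun _ => ?_⟩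
    rw [map_sub, map_one]
    linear_combination -hc

/-- the determinant of `U_t` -/
theorem det_uu {g h h' : R} {δ : F} (hg : g * g = δ • (1 : R)) (hgh : g * h = -(h * g)) (hh : h * h' = 1) {t : F}
    (ht : 1 - δ * t ^ 2 ≠ 0) : (uu g (1 - δ * t ^ 2) t).det = 1 := by
  have h1 := congrArg Matrix.det (one_conj hgh t)
  rw [Matrix.det_mul, Matrix.det_mul, mul_comm] at h1
  have hd : h.det ≠ 0 := by
    intro h0
    have h2 := congrArg Matrix.det hh
    rw [Matrix.det_mul, h0, zero_mul, Matrix.det_one] at h2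
    exact zero_ne_one h2
  have h3 := mul_left_cancel₀ hd h1
  have h4 := congrArg Matrix.det (one_mul_one hg t)
  rw [Matrix.det_mul, ← h3, Matrix.det_smul, Matrix.det_one, mul_one, Fintype.card_fin] at h4
  unfold uu
  rw [Matrix.det_smul, Matrix.det_mul, h4, Fintype.card_fin, ← mul_pow, inv_mul_cancel₀ ht, one_pow]

/-- a lift of an element of `G` centralizing an element of `E` -/
theorem eigen (hM : Model N ι π) {s s' : S} (h : π s' = π s) {T : R → R} (hs' : mt ι s' = T (mt ι s)) :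
    ∃ c : F, T (mt ι s) = c • mt ι s := by
  obtain ⟨c, hc⟩ := smul_of_eq hM h
  exact ⟨c, by rw [← hs', hc]⟩

end ind

section sl

variable {G : Type u} [Group G] {N A : Subgroup G} {F : Type} [Field F] {n : ℕ}

local notation "R" => Matrix (Fin n) (Fin n) F

theorem mt_iSL (s : Matrix.SpecialLinearGroup (Fin n) F) : mt (iSL n F) s = (s : R) := rfl

/-- the square of the field automorphism -/
theorem sigma_sq_sl (hn : 2 ≤ n) {B : Matrix.GeneralLinearGroup (Fin n) F} {σ : F ≃+* F}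
    (h : ∀ s : Matrix.SpecialLinearGroup (Fin n) F, tauM B σ (tauM B σ (mt (iSL n F) s)) = mt (iSL n F) s) (c : F) :
    σ (σ c) = c := by
  let i : Fin n := ⟨0, by omega⟩
  let j : Fin n := ⟨1, by omega⟩
  have hij : i ≠ j := by
    intro h1
    have := congrArg Fin.val h1
    simp [i, j] at this
  have h1 : ∀ c : F, tauM B σ (tauM B σ (Matrix.single i j c)) = Matrix.single i j c := by
    intro c
    have h2 := h ⟨Matrix.transvection i j c, Matrix.det_transvection_of_ne i j hij c⟩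
    change tauM B σ (tauM B σ (1 + Matrix.single i j c)) = 1 + Matrix.single i j c at h2
    rw [map_add, map_add, tauM_one, tauM_one] at h2
    exact add_left_cancel h2
  have h2 : Matrix.single i j c = c • Matrix.single i j (1 : F) := by
    rw [Matrix.smul_single, smul_eq_mul, mul_one]
  have h3 := h1 c
  rw [h2, tauM_smul, tauM_smul, h1 1] at h3
  have h4 := congrFun (congrFun h3 i) j
  rw [Matrix.smul_apply, Matrix.smul_apply, Matrix.single_apply_same, smul_eq_mul, smul_eq_mul, mul_one, mul_one] at h4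
  exact h4

end sl

section main

variable {G : Type u} [Group G] {N A : Subgroup G} {F : Type} [Field F] [Fintype F] {n : ℕ}

local notation "R" => Matrix (Fin n) (Fin n) F

theorem two_ne (hp : ¬ 2 ∣ Fintype.card F) : (2 : F) ≠ 0 := by
  obtain ⟨p, hc⟩ := CharP.exists F
  have hpp : p.Prime := CharP.char_is_prime F p
  intro h
  have h1 : ((2 : ℕ) : F) = 0 := by exact_mod_cast h
  rw [CharP.cast_eq_zero_iff F p] at h1
  have h2 : p = 2 := (Nat.prime_dvd_prime_iff_eq hpp Nat.prime_two).1 h1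
  subst h2
  obtain ⟨k, -, hk⟩ := FiniteField.card F 2
  rw [hk] at hp
  exact hp (dvd_pow_self 2 (PNat.ne_zero k))

theorem graph_q_sl {π : Matrix.SpecialLinearGroup (Fin n) F →* G} (h : Loc N A 2) (hn : 3 ≤ n) (hp : ¬ 2 ∣ Fintype.card F)
    (hM : Model N (iSL n F) π) (hX : Extra (iSL n F) π N A 2) {x : G} (hx2 : x ^ 2 = 1)
    (hcen : ∀ y ∈ A ⊓ N, x * y = y * x) (hle : ∀ y ∈ N, x * y = y * x → y ∈ A)
    {B : Matrix.GeneralLinearGroup (Fin n) F} {σ : F ≃+* F} (hτ : Ind (iSL n F) π x (tauM B σ)) : Nat.card F ≤ 81 := by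
  have h2 := two_ne hp
  have hn2 : 2 ≤ n := by omega
  have hlift := ind_tauM hn2 hτ
  have hxx : x⁻¹ = x := by
    rw [inv_eq_iff_mul_eq_one, ← pow_two, hx2]
  -- `τ² = 1`
  have htt : ∀ s, tauM B σ (tauM B σ (mt (iSL n F) s)) = mt (iSL n F) s := by
    refine tt_fix hM (fun y => tauM B σ (tauM B σ y)) (fun a b => ?_) fun s => ?_
    · rw [tauM_mul, tauM_mul]
    · obtain ⟨s1, h1, h1'⟩ := hlift s
      obtain ⟨s2, h3, h3'⟩ := hlift s1
      refine ⟨s2, by rw [h3, h1], ?_⟩
      have h4 : π s1 = x * (π s)⁻¹ * x⁻¹ := by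
        rw [← inv_inv (π s1), h1']
        group
      rw [h4] at h3'
      rw [← inv_inv (π s2), h3', hxx]
      have : x * (x * (π s)⁻¹ * x) * x = (π s)⁻¹ := by
        have hxx' : x * x = 1 := by rw [← pow_two, hx2]
        calc x * (x * (π s)⁻¹ * x) * x = (x * x) * (π s)⁻¹ * (x * x) := by group
          _ = _ := by rw [hxx', one_mul, mul_one]
      rw [this, inv_inv]
  have hσσ := sigma_sq_sl hn2 htt
  -- elements of the preimage of `E`
  have hEA : OO 2 A ⊓ N ≤ A ⊓ N := inf_le_inf_right _ (OO_le 2 A)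
  have hE : ∀ s, π s ∈ OO 2 A ⊓ N → ∃ c : F, tauM B σ (mt (iSL n F) s) = c • mt (iSL n F) s ∧ σ c * c = 1 := by
    intro s hs
    obtain ⟨s1, h1, h1'⟩ := hlift s
    have h3 : π s1 = π s := by
      have h4 : x * π s * x⁻¹ = π s := by
        rw [hcen _ (hEA hs)]
        group
      rw [h4] at h1'
      have h5 : (π s)⁻¹ = π s := by
        rw [inv_eq_iff_mul_eq_one, ← pow_two]
        exact hX.exp _ hs
      rw [← inv_inv (π s1), h1', h5]
    obtain ⟨c, hc⟩ := eigen hM h3 (T := tauM B σ) h1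
    refine ⟨c, hc, ?_⟩
    have h4 := htt s
    rw [hc, tauM_smul, hc, smul_smul] at h4
    exact scal_inj hn2 s (by rw [h4, one_smul])
  -- an element with `τ g = - g`
  obtain ⟨s, t, hs, ht, hst⟩ := hX.nonab
  have hanti : mt (iSL n F) s * mt (iSL n F) t = -(mt (iSL n F) t * mt (iSL n F) s) :=
    anti hM (hX.exp _ hs) (hX.comm _ hs _ ht.1) hst
  obtain ⟨s₁, l, t₁, hs₁, hl, ht₁, hτg, hgh⟩ : ∃ (s₁ : Matrix.SpecialLinearGroup (Fin n) F) (l : F)
      (t₁ : Matrix.SpecialLinearGroup (Fin n) F), π s₁ ∈ OO 2 A ⊓ N ∧ l ≠ 0 ∧ π t₁ ∈ OO 2 A ⊓ N ∧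
      tauM B σ (l • mt (iSL n F) s₁) = -(l • mt (iSL n F) s₁) ∧
      mt (iSL n F) s₁ * mt (iSL n F) t₁ = -(mt (iSL n F) t₁ * mt (iSL n F) s₁) := by
    have key : ∀ s : Matrix.SpecialLinearGroup (Fin n) F, ∀ c : F, tauM B σ (mt (iSL n F) s) = c • mt (iSL n F) s →
        σ c * c = 1 → (c ≠ 1 ∨ σ ≠ 1) → ∃ l : F, l ≠ 0 ∧
        tauM B σ (l • mt (iSL n F) s) = -(l • mt (iSL n F) s) := by
      intro s c hc hcc hor
      obtain ⟨l, hl, hl'⟩ := hilbert hcc hor
      refine ⟨l, hl, ?_⟩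
      rw [tauM_smul, hc, smul_smul, hl' hσσ, neg_smul]
    obtain ⟨c, hc, hcc⟩ := hE s hs
    obtain ⟨d, hd, hdd⟩ := hE t ht
    by_cases h3 : c ≠ 1 ∨ σ ≠ 1
    · obtain ⟨l, hl, hl'⟩ := key s c hc hcc h3
      exact ⟨s, l, t, hs, hl, ht, hl', hanti⟩
    · push Not at h3
      by_cases h4 : d ≠ 1
      · obtain ⟨l, hl, hl'⟩ := key t d hd hdd (Or.inl h4)
        exact ⟨t, l, s, ht, hl, hs, hl', by rw [hanti, neg_neg]⟩
      · push Not at h4
        refine ⟨s * t, 1, s, by rw [map_mul]; exact mul_mem hs ht, one_ne_zero, hs, ?_, ?_⟩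
        · rw [one_smul, mt_mul, tauM_mul, hc, hd, h3.1, h4, one_smul, one_smul, hanti, neg_neg]
        · rw [mt_mul, mul_assoc, ← neg_eq_iff_eq_neg.2 hanti, mul_neg]
  obtain ⟨e, he⟩ := sq_scal hM (hX.exp _ hs₁)
  have he0 : e ≠ 0 := by
    rintro rfl
    rw [zero_smul, ← mt_mul] at he
    exact mt_ne_zero hn2 _ he
  set g : R := l • mt (iSL n F) s₁ with hgdef
  have hg : g * g = (l * l * e) • (1 : R) := by
    rw [hgdef, smul_mul_smul_comm, he, smul_smul]
  have hδ0 : l * l * e ≠ 0 := mul_ne_zero (mul_ne_zero hl hl) he0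
  set δ := l * l * e with hδ
  have hgh' : g * mt (iSL n F) t₁ = -(mt (iSL n F) t₁ * g) := by
    rw [hgdef, smul_mul_assoc, hgh, mul_smul_comm, smul_neg]
  have hσδ : σ δ = δ := by
    have h3 := congrArg (tauM B σ) hg
    rw [tauM_mul, hτg, neg_mul_neg, hg, tauM_smul, tauM_one] at h3
    have h4 := smul_left_injective F (one_ne_zero_mat (F := F) hn2) h3
    exact h4.symm
  have hfix : Nat.card {t : F // σ t = t} ≤ 9 := by
    refine card_fix_le δ fun t ht ht0 => ?_
    have hσc : σ (1 - δ * t ^ 2)⁻¹ = (1 - δ * t ^ 2)⁻¹ := by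
      rw [map_inv₀, map_sub, map_one, map_mul, map_pow, hσδ, ht]
    have hdet := det_uu hg hgh' (mt_mul_inv (ι := iSL n F) t₁) ht0
    let u : Matrix.SpecialLinearGroup (Fin n) F := ⟨uu g (1 - δ * t ^ 2) t, hdet⟩
    have hu : mt (iSL n F) u = uu g (1 - δ * t ^ 2) t := rfl
    have hτu : tauM B σ (mt (iSL n F) u) = uu g (1 - δ * t ^ 2) (-t) := by
      rw [hu]
      unfold uu
      have h3 : tauM B σ (1 + t • g) = 1 + (-t) • g := by
        rw [map_add, tauM_one, tauM_smul, hτg, ht, smul_neg, neg_smul]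
      rw [tauM_smul, tauM_mul, h3, hσc]
    obtain ⟨u', hu', hu''⟩ := hlift u
    have h3 : u' = u⁻¹ := by
      apply mt_inj hM
      rw [hu', hτu]
      exact (mt_inv_eq (by rw [hu]; exact uu_mul_neg hg ht0)).symm
    rw [h3, map_inv, inv_inv] at hu''
    have hN : π u ∈ N := by rw [← hM.range]; exact ⟨u, rfl⟩
    have hA : π u ∈ A := hle _ hN (by
      conv_rhs => rw [hu'']
      group)
    exact core h2 h.normal hM hX.comm hg hδ0 hgh' ht₁ rfl ht0 hA hu
  calc Nat.card F ≤ Nat.card {t : F // σ t = t} * Nat.card {t : F // σ t = t} := card_le_sq h2 hσσ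
    _ ≤ 9 * 9 := Nat.mul_le_mul hfix hfix
    _ = 81 := by norm_num

end main

end Cfsg.Agent.H588.TWG
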