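import Cfsg.Agent.H588.TWG.Sl
import Cfsg.Agent.H199.PslGraphField

/-!
# S3694, T10, the unitary case (helper588)

`graph_q_su` : `x` an involutory automorphism of `PSU_n(q)` of graph type centralizing `A ∩ N`, `A ∩ N` of extraspecial
type: `|F| ≤ 81`.
-/

set_option autoImplicit false
set_option linter.unusedSectionVars false

namespace Cfsg.Agent.H588.TWG

open Matrix Subgroup Cfsg.Agent.H607.TW

universe u

section su

variable {F : Type} [Field F] [Fintype F] {n q : ℕ}

local notation "R" => Matrix (Fin n) (Fin n) F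

theorem mt_iSU (s : ↥(Cfsg.SU n F q)) : mt (iSU n F q) s = ((s : Matrix.SpecialLinearGroup (Fin n) F) : R) := rfl

theorem mem_SU_iff (hq : q ≠ 0) {J : F ≃+* F} (hJ : ∀ a, J a = a ^ q) (g : Matrix.SpecialLinearGroup (Fin n) F) :
    g ∈ Cfsg.SU n F q ↔ (g : R)ᵀ * (g : R).map J = 1 :=
  Cfsg.Agent.H199.PslGraphField.mem_GU_iff' hq hJ (Matrix.SpecialLinearGroup.toGL g)

/-- the adjoint -/
theorem star_apply (J : F ≃+* F) (x : R) : tauM 1 J x = (x.map J)ᵀ := by
  rw [tauM_apply, inv_one, Units.val_one, one_mul, mul_one]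
  rfl

theorem star_star {J : F ≃+* F} (hJJ : ∀ a, J (J a) = a) (x : R) : tauM 1 J (tauM 1 J x) = x := by
  rw [star_apply, star_apply]
  ext i j
  simp [hJJ]

theorem mem_SU_star (hq : q ≠ 0) {J : F ≃+* F} (hJ : ∀ a, J a = a ^ q) (g : Matrix.SpecialLinearGroup (Fin n) F) :
    g ∈ Cfsg.SU n F q ↔ tauM 1 J (g : R) * (g : R) = 1 := by
  rw [mem_SU_iff hq hJ, star_apply]
  constructor
  · intro h
    have h1 := congrArg Matrix.transpose h
    rwa [Matrix.transpose_mul, Matrix.transpose_transpose, Matrix.transpose_one] at h1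
  · intro h
    have h1 := congrArg Matrix.transpose h
    rwa [Matrix.transpose_mul, Matrix.transpose_transpose, Matrix.transpose_one] at h1

theorem star_mt (hq : q ≠ 0) {J : F ≃+* F} (hJ : ∀ a, J a = a ^ q) (s : ↥(Cfsg.SU n F q)) :
    tauM 1 J (mt (iSU n F q) s) * mt (iSU n F q) s = 1 :=
  (mem_SU_star hq hJ _).1 s.2

theorem star_mt' (hq : q ≠ 0) {J : F ≃+* F} (hJ : ∀ a, J a = a ^ q) (s : ↥(Cfsg.SU n F q)) :
    tauM 1 J (mt (iSU n F q) s) = mt (iSU n F q) s⁻¹ := by
  calc tauM 1 J (mt (iSU n F q) s) = tauM 1 J (mt (iSU n F q) s) * (mt (iSU n F q) s * mt (iSU n F q) s⁻¹) := by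
        rw [mt_mul_inv, mul_one]
    _ = _ := by rw [← mul_assoc, star_mt hq hJ, one_mul]

theorem exists_J (hF : Fintype.card F = q ^ 2) : ∃ J : F ≃+* F, (∀ a, J a = a ^ q) ∧ (∀ a, J (J a) = a) ∧ q ≠ 0 ∧ J ≠ 1 := by
  obtain ⟨τ, hτ⟩ := Cfsg.Agent.ClassicalGeometry.GUBasic.exists_powHom hF
  have hq := Cfsg.Agent.ClassicalGeometry.GUBasic.two_le hF
  have hbij : Function.Bijective τ := Finite.injective_iff_bijective.1 τ.injective
  refine ⟨RingEquiv.ofBijective τ hbij, hτ, fun a => ?_, by omega, fun h => ?_⟩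
  · change τ (τ a) = a
    rw [hτ, hτ, ← pow_mul, ← pow_two, ← hF, FiniteField.pow_card]
  · have h3 : ∀ x : F, x ^ q = x := by
      intro x
      rw [← hτ]
      exact DFunLike.congr_fun h x
    have h4 : Fintype.card F ≤ q := by
      classical
      have h5 : (Polynomial.X ^ q - Polynomial.X : Polynomial F) ≠ 0 :=
        FiniteField.X_pow_card_sub_X_ne_zero F hq
      have h6 : (Finset.univ : Finset F) ⊆ (Polynomial.X ^ q - Polynomial.X : Polynomial F).roots.toFinset := by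
        intro x _
        rw [Multiset.mem_toFinset, Polynomial.mem_roots h5, Polynomial.IsRoot.def]
        simp [h3 x]
      calc Fintype.card F = (Finset.univ : Finset F).card := rfl
        _ ≤ _ := Finset.card_le_card h6
        _ ≤ _ := Multiset.toFinset_card_le _
        _ ≤ _ := Polynomial.card_roots' _
        _ = q := FiniteField.X_pow_card_sub_X_natDegree_eq F hq
    rw [hF] at h4
    nlinarith

/-- a diagonal matrix in `SU` -/
theorem diag_mem (hq : q ≠ 0) {J : F ≃+* F} (hJ : ∀ a, J a = a ^ q) {v : Fin n → F} (hv : ∀ i, v i * J (v i) = 1)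
    (hd : ∏ i, v i = 1) : ∃ s : ↥(Cfsg.SU n F q), mt (iSU n F q) s = diagonal v := by
  let g : Matrix.SpecialLinearGroup (Fin n) F := ⟨diagonal v, by rw [Matrix.det_diagonal, hd]⟩
  have hg : g ∈ Cfsg.SU n F q := by
    rw [mem_SU_iff hq hJ]
    change (diagonal v)ᵀ * (diagonal v).map J = 1
    rw [Matrix.diagonal_transpose, Matrix.diagonal_map (map_zero J), Matrix.diagonal_mul_diagonal]
    rw [← Matrix.diagonal_one]
    congr 1
    funext i
    exact hv i
  exact ⟨⟨g, hg⟩, rfl⟩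

/-- the vectors `(a, .., a⁻¹, ..)` -/
theorem diag_mem' (hq : q ≠ 0) {J : F ≃+* F} (hJ : ∀ a, J a = a ^ q) {i j : Fin n} (hij : i ≠ j) {a : F}
    (ha : a * J a = 1) : ∃ s : ↥(Cfsg.SU n F q),
      mt (iSU n F q) s = 1 + Matrix.single i i (a - 1) + Matrix.single j j (a⁻¹ - 1) := by
  have ha0 : a ≠ 0 := by
    rintro rfl
    rw [zero_mul] at ha
    exact zero_ne_one ha
  let v : Fin n → F := fun k => if k = i then a else if k = j then a⁻¹ else 1
  have hvi : v i = a := if_pos rfl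
  have hvj : v j = a⁻¹ := by
    change (if j = i then a else if j = j then a⁻¹ else 1) = _
    rw [if_neg hij.symm, if_pos rfl]
  have hvk : ∀ k, k ≠ i → k ≠ j → v k = 1 := fun k h1 h2 => by
    change (if k = i then a else if k = j then a⁻¹ else 1) = _
    rw [if_neg h1, if_neg h2]
  obtain ⟨s, hs⟩ := diag_mem (v := v) hq hJ (fun k => by
    by_cases h1 : k = i
    · rw [h1, hvi, ha]
    · by_cases h2 : k = j
      · rw [h2, hvj, map_inv₀, ← mul_inv, ha, inv_one]
      · rw [hvk k h1 h2, map_one, mul_one]) (by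
    rw [Finset.prod_eq_mul i j hij (fun k _ hk => hvk k hk.1 hk.2) (by simp) (by simp), hvi, hvj, mul_inv_cancel₀ ha0])
  refine ⟨s, ?_⟩
  rw [hs]
  ext k l
  by_cases hkl : k = l
  · subst hkl
    rw [Matrix.diagonal_apply_eq, Matrix.add_apply, Matrix.add_apply, Matrix.one_apply_eq]
    by_cases h1 : k = i
    · subst h1
      rw [hvi, Matrix.single_apply_same]
      simp [hij.symm]
    · by_cases h2 : k = j
      · subst h2
        rw [hvj, Matrix.single_apply_same]
        simp [hij]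
      · rw [hvk k h1 h2]
        simp [Ne.symm h1, Ne.symm h2]
  · rw [Matrix.diagonal_apply_ne _ hkl, Matrix.add_apply, Matrix.add_apply, Matrix.one_apply_ne hkl]
    have e1 : ∀ (m : Fin n) (c : F), Matrix.single m m c k l = 0 := by
      intro m c
      rw [Matrix.single_apply]
      apply if_neg
      rintro ⟨h1, h2⟩
      exact hkl (h1.symm.trans h2)
    rw [e1, e1]
    simp

/-- the square of the field automorphism -/
theorem sigma_sq_su (hn : 3 ≤ n) (h2 : (2 : F) ≠ 0) (hF : Fintype.card F = q ^ 2)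
    {B : Matrix.GeneralLinearGroup (Fin n) F} {σ : F ≃+* F}
    (h : ∀ s : ↥(Cfsg.SU n F q), tauP B σ (tauP B σ (mt (iSU n F q) s)) = mt (iSU n F q) s) (c : F) :
    σ (σ c) = c := by
  obtain ⟨J, hJ, hJJ, hq, hJ1⟩ := exists_J hF
  let i : Fin n := ⟨0, by omega⟩
  let j : Fin n := ⟨1, by omega⟩
  let k : Fin n := ⟨2, by omega⟩
  have hij : i ≠ j := by simp [i, j]
  have hik : i ≠ k := by simp [i, k]
  have hjk : j ≠ k := by simp [j, k]
  -- `T = τ²`
  have h1 : ∀ a : F, a * J a = 1 → ∀ b : F, b * J b = 1 →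
      tauP B σ (tauP B σ (Matrix.single i i ((a - 1) * (b - 1)))) = Matrix.single i i ((a - 1) * (b - 1)) := by
    intro a ha b hb
    obtain ⟨s, hs⟩ := diag_mem' (n := n) hq hJ hij ha
    obtain ⟨t, ht⟩ := diag_mem' (n := n) hq hJ hik hb
    have h3 := h s
    have h4 := h t
    rw [hs, add_assoc, map_add, map_add, tauP_one, tauP_one] at h3
    rw [ht, add_assoc, map_add, map_add, tauP_one, tauP_one] at h4
    have h5 := add_left_cancel h3
    have h6 := add_left_cancel h4
    have h7 : (Matrix.single i i (a - 1) + Matrix.single j j (a⁻¹ - 1)) *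
        (Matrix.single i i (b - 1) + Matrix.single k k (b⁻¹ - 1)) = Matrix.single i i ((a - 1) * (b - 1)) := by
      rw [add_mul, mul_add, mul_add, Matrix.single_mul_single_same, Matrix.single_mul_single_of_ne _ _ _ _ hik,
        Matrix.single_mul_single_of_ne _ _ _ _ hij.symm, Matrix.single_mul_single_of_ne _ _ _ _ hjk]
      simp
    rw [← h7, tauP_mul, tauP_mul, h5, h6]
  have hm1 : (-1 : F) * J (-1) = 1 := by rw [map_neg, map_one]; ring
  have h4 : (4 : F) ≠ 0 := by
    have : (4 : F) = 2 * 2 := by norm_num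
    rw [this]
    exact mul_ne_zero h2 h2
  have hs : ∀ c : F, Matrix.single i i c = c • Matrix.single i i (1 : F) := by
    intro c
    rw [Matrix.smul_single, smul_eq_mul, mul_one]
  have hρ : ∀ m : ℕ, σ (σ (m : F)) = m := by
    intro m
    rw [map_natCast, map_natCast]
  have h5 : tauP B σ (tauP B σ (Matrix.single i i (1 : F))) = Matrix.single i i 1 := by
    have h6 := h1 (-1) hm1 (-1) hm1
    have h7 : ((-1 : F) - 1) * (-1 - 1) = ((4 : ℕ) : F) := by push_cast; ring
    rw [h7, hs, tauP_smul, tauP_smul, hρ] at h6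
    have h8 : ((4 : ℕ) : F) ≠ 0 := by exact_mod_cast h4
    exact smul_right_injective R h8 h6
  have hne : Matrix.single i i (1 : F) ≠ 0 := by
    intro h6
    have h7 := congrFun (congrFun h6 i) i
    rw [Matrix.single_apply_same] at h7
    exact one_ne_zero h7
  -- `ρ = σ²` fixes the elements of norm one
  have h6 : ∀ a : F, a * J a = 1 → σ (σ a) = a := by
    intro a ha
    have h7 := h1 (-1) hm1 a ha
    rw [hs, tauP_smul, tauP_smul, h5] at h7
    have h8 := smul_left_injective F hne h7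
    simp only [map_mul, map_sub, map_neg, map_one] at h8
    have h9 : (-2 : F) * (σ (σ a) - 1) = (-2) * (a - 1) := by linear_combination h8
    have h10 := mul_left_cancel₀ (neg_ne_zero.2 h2) h9
    linear_combination h10
  obtain ⟨z, hz⟩ : ∃ z, J z ≠ z := by
    by_contra hcon
    push Not at hcon
    exact hJ1 (RingEquiv.ext hcon)
  obtain ⟨θ, hθ, hθ0⟩ : ∃ θ : F, J θ = -θ ∧ θ ≠ 0 := by
    refine ⟨z - J z, ?_, fun h7 => hz (sub_eq_zero.1 h7).symm⟩
    rw [map_sub, hJJ]
    ring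
  have hkey : ∀ c : F, J c = c → σ (σ c) * θ = c * σ (σ θ) := by
    intro c hc
    have h7 : c + θ ≠ 0 := by
      intro h8
      have h9 : J (c + θ) = 0 := by rw [h8, map_zero]
      rw [map_add, hc, hθ] at h9
      have h10 : (2 : F) * θ = 0 := by linear_combination h8 - h9
      exact hθ0 ((mul_eq_zero.1 h10).resolve_left h2)
    have h8 : c - θ ≠ 0 := by
      intro h8
      have h9 : J (c - θ) = 0 := by rw [h8, map_zero]
      rw [map_sub, hc, hθ] at h9
      have h10 : (2 : F) * θ = 0 := by linear_combination h9 - h8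
      exact hθ0 ((mul_eq_zero.1 h10).resolve_left h2)
    have h9 : ((c + θ) / (c - θ)) * J ((c + θ) / (c - θ)) = 1 := by
      rw [map_div₀, map_add, map_sub, hc, hθ, sub_neg_eq_add, ← sub_eq_add_neg]
      field_simp
    have h10 := h6 _ h9
    rw [map_div₀, map_div₀, map_add, map_sub, map_add, map_sub] at h10
    have h11 : σ (σ c) - σ (σ θ) ≠ 0 := by
      rw [← map_sub, ← map_sub]
      intro h12
      exact h8 (σ.injective (σ.injective (by rw [h12, map_zero, map_zero])))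
    rw [div_eq_div_iff h11 h8] at h10
    have h12 : (2 : F) * (σ (σ c) * θ) = 2 * (c * σ (σ θ)) := by linear_combination -h10
    exact mul_left_cancel₀ h2 h12
  have hθθ : σ (σ θ) = θ := by
    have h7 := hkey 1 (map_one J)
    rw [map_one, map_one, one_mul, one_mul] at h7
    exact h7.symm
  have hfix : ∀ c : F, J c = c → σ (σ c) = c := by
    intro c hc
    have h7 := hkey c hc
    rw [hθθ] at h7
    exact mul_right_cancel₀ hθ0 h7
  have h7 : (2 : F) * c = (c + J c) + θ * ((c - J c) / θ) := by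
    field_simp
    ring
  have h8 : σ (σ (2 * c)) = 2 * c := by
    rw [h7, map_add, map_add, map_mul, map_mul, hθθ, hfix (c + J c) (by rw [map_add, hJJ, add_comm]),
      hfix ((c - J c) / θ) (by
        rw [map_div₀, map_sub, hJJ, hθ, div_neg, ← neg_div, neg_sub])]
  rw [map_mul, map_mul] at h8
  have h9 : σ (σ (2 : F)) = 2 := by
    have := hρ 2
    exact_mod_cast this
  rw [h9] at h8
  exact mul_left_cancel₀ h2 h8

end su

section main

variable {G : Type u} [Group G] {N A : Subgroup G} {F : Type} [Field F] [Fintype F] {n q : ℕ}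

local notation "R" => Matrix (Fin n) (Fin n) F

theorem graph_q_su' (hF : Fintype.card F = q ^ 2) {π : ↥(Cfsg.SU n F q) →* G} (h : Loc N A 2) (hn : 3 ≤ n)
    (hp : ¬ 2 ∣ Fintype.card F) (hM : Model N (iSU n F q) π) (hX : Extra (iSU n F q) π N A 2) {x : G} (hx2 : x ^ 2 = 1)
    (hcen : ∀ y ∈ A ⊓ N, x * y = y * x) (hle : ∀ y ∈ N, x * y = y * x → y ∈ A)
    {B : Matrix.GeneralLinearGroup (Fin n) F} {σ : F ≃+* F} (hσ : σ ≠ 1) (hτ : Ind (iSU n F q) π x (tauP B σ)) :
    Nat.card F ≤ 81 := by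
  have h2 := two_ne hp
  have hn2 : 2 ≤ n := by omega
  have hlift := ind_tauP hn2 hτ
  have hxx : x⁻¹ = x := by
    rw [inv_eq_iff_mul_eq_one, ← pow_two, hx2]
  -- `τ² = 1`
  have htt : ∀ s, tauP B σ (tauP B σ (mt (iSU n F q) s)) = mt (iSU n F q) s := by
    refine tt_fix hM (fun y => tauP B σ (tauP B σ y)) (fun a b => ?_) fun s => ?_
    · rw [tauP_mul, tauP_mul]
    · obtain ⟨s1, h1, h1'⟩ := hlift s
      obtain ⟨s2, h3, h3'⟩ := hlift s1
      refine ⟨s2, by rw [h3, h1], ?_⟩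
      rw [h3', h1', hxx]
      have hxx' : x * x = 1 := by rw [← pow_two, hx2]
      calc x * (x * π s * x) * x = (x * x) * π s * (x * x) := by group
        _ = _ := by rw [hxx', one_mul, mul_one]
  have hσσ := sigma_sq_su hn h2 hF htt
  have hord : orderOf σ = 2 := orderOf_eq_prime (by ext a; exact hσσ a) hσ
  have hJ : ∀ a, σ a = a ^ q := Cfsg.Agent.H199.PslGraphField.eq_pow hF hord
  have hq : q ≠ 0 := by
    have := Cfsg.Agent.ClassicalGeometry.GUBasic.two_le hF
    omega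
  -- elements of the preimage of `E`
  have hEA : OO 2 A ⊓ N ≤ A ⊓ N := inf_le_inf_right _ (OO_le 2 A)
  have hE : ∀ s, π s ∈ OO 2 A ⊓ N → ∃ (l c : F), l ≠ 0 ∧ tauM 1 σ (l • mt (iSU n F q) s) = -(l • mt (iSU n F q) s) ∧
      tauP B σ (l • mt (iSU n F q) s) = c • (l • mt (iSU n F q) s) ∧ (c = 1 ∨ c = -1) := by
    intro s hs
    -- the adjoint
    obtain ⟨δ, hδ⟩ := sq_scal hM (hX.exp _ hs)
    have hδ0 : δ ≠ 0 := by
      rintro rfl
      rw [zero_smul, ← mt_mul] at hδ
      exact mt_ne_zero hn2 _ hδ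
    have hst : tauM 1 σ (mt (iSU n F q) s) = δ⁻¹ • mt (iSU n F q) s := by
      rw [star_mt' hq hJ]
      apply mt_inv_eq
      rw [mul_smul_comm, hδ, smul_smul, inv_mul_cancel₀ hδ0, one_smul]
    have hst2 : σ δ⁻¹ * δ⁻¹ = 1 := by
      have h3 := star_star hσσ (mt (iSU n F q) s)
      rw [hst, tauM_smul, hst, smul_smul] at h3
      exact scal_inj hn2 s (by rw [h3, one_smul])
    obtain ⟨l, hl, hl'⟩ := hilbert hst2 (Or.inr hσ)
    have hk : tauM 1 σ (l • mt (iSU n F q) s) = -(l • mt (iSU n F q) s) := by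
      rw [tauM_smul, hst, smul_smul, hl' hσσ, neg_smul]
    -- `τ`
    obtain ⟨s1, h1, h1'⟩ := hlift s
    have h3 : π s1 = π s := by
      rw [h1', hcen _ (hEA hs)]
      group
    obtain ⟨c, hc⟩ := eigen hM h3 (T := tauP B σ) h1
    have hc' : tauP B σ (l • mt (iSU n F q) s) = (σ l * c * l⁻¹) • (l • mt (iSU n F q) s) := by
      rw [tauP_smul, hc, smul_smul, smul_smul, mul_assoc, inv_mul_cancel₀ hl, mul_one]
    set c' := σ l * c * l⁻¹ with hcdef
    have hlm : ∀ a b : F, a • (l • mt (iSU n F q) s) = b • (l • mt (iSU n F q) s) → a = b := by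
      intro a b hab
      rw [smul_smul, smul_smul] at hab
      exact mul_right_cancel₀ hl (scal_inj hn2 s hab)
    -- the adjoint commutes with `τ`
    have hcomm : tauP B σ (tauM 1 σ (mt (iSU n F q) s)) = tauM 1 σ (tauP B σ (mt (iSU n F q) s)) := by
      rw [star_mt' hq hJ, ← h1, star_mt' hq hJ]
      symm
      apply mt_inv_eq
      rw [h1, ← tauP_mul, mt_mul_inv, tauP_one]
    have hcomm' : tauP B σ (tauM 1 σ (l • mt (iSU n F q) s)) = tauM 1 σ (tauP B σ (l • mt (iSU n F q) s)) := by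
      rw [tauM_smul, tauP_smul, tauP_smul, tauM_smul, hcomm]
    have hσc : σ c' = c' := by
      rw [hk, map_neg, hc', tauM_smul, hk, smul_neg] at hcomm'
      exact (hlm _ _ (neg_injective hcomm')).symm
    have hcc : c' * c' = 1 := by
      have h4 : tauP B σ (tauP B σ (l • mt (iSU n F q) s)) = l • mt (iSU n F q) s := by
        rw [tauP_smul, tauP_smul, htt, hσσ]
      rw [hc', tauP_smul, hc', smul_smul, hσc] at h4
      exact hlm _ _ (by rw [h4, one_smul])
    refine ⟨l, c', hl, hk, hc', ?_⟩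
    have h5 : (c' - 1) * (c' + 1) = 0 := by linear_combination hcc
    rcases mul_eq_zero.1 h5 with h6 | h6
    · exact Or.inl (by linear_combination h6)
    · exact Or.inr (by linear_combination h6)
  obtain ⟨s, t, hs, ht, hst⟩ := hX.nonab
  have hanti : mt (iSU n F q) s * mt (iSU n F q) t = -(mt (iSU n F q) t * mt (iSU n F q) s) :=
    anti hM (hX.exp _ hs) (hX.comm _ hs _ ht.1) hst
  obtain ⟨s₁, l, t₁, hs₁, hl, ht₁, hsg, hτg, hgh⟩ : ∃ (s₁ : ↥(Cfsg.SU n F q)) (l : F)
      (t₁ : ↥(Cfsg.SU n F q)), π s₁ ∈ OO 2 A ⊓ N ∧ l ≠ 0 ∧ π t₁ ∈ OO 2 A ⊓ N ∧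
      tauM 1 σ (l • mt (iSU n F q) s₁) = -(l • mt (iSU n F q) s₁) ∧
      tauP B σ (l • mt (iSU n F q) s₁) = l • mt (iSU n F q) s₁ ∧
      mt (iSU n F q) s₁ * mt (iSU n F q) t₁ = -(mt (iSU n F q) t₁ * mt (iSU n F q) s₁) := by
    obtain ⟨l, c, hl, hk, hc, hcc⟩ := hE s hs
    obtain ⟨m, d, hm, hk', hd, hdd⟩ := hE t ht
    rcases hcc with rfl | rfl
    · exact ⟨s, l, t, hs, hl, ht, hk, by rw [hc, one_smul], hanti⟩
    · rcases hdd with rfl | rfl
      · exact ⟨t, m, s, ht, hm, hs, hk', by rw [hd, one_smul], by rw [hanti, neg_neg]⟩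
      · have hprod : (l * m) • mt (iSU n F q) (s * t) = (l • mt (iSU n F q) s) * (m • mt (iSU n F q) t) := by
          rw [smul_mul_smul_comm, mt_mul]
        refine ⟨s * t, l * m, s, by rw [map_mul]; exact mul_mem hs ht, mul_ne_zero hl hm, hs, ?_, ?_, ?_⟩
        · rw [hprod, tauM_mul, hk, hk', neg_mul_neg, smul_mul_smul_comm, smul_mul_smul_comm, hanti, smul_neg, neg_neg,
            mul_comm m l]
        · rw [hprod, tauP_mul, hc, hd, neg_one_smul, neg_one_smul, neg_mul_neg]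
        · rw [mt_mul, mul_assoc, ← neg_eq_iff_eq_neg.2 hanti, mul_neg]
  obtain ⟨e, he⟩ := sq_scal hM (hX.exp _ hs₁)
  have he0 : e ≠ 0 := by
    rintro rfl
    rw [zero_smul, ← mt_mul] at he
    exact mt_ne_zero hn2 _ he
  set g : R := l • mt (iSU n F q) s₁ with hgdef
  have hg : g * g = (l * l * e) • (1 : R) := by
    rw [hgdef, smul_mul_smul_comm, he, smul_smul]
  have hδ0 : l * l * e ≠ 0 := mul_ne_zero (mul_ne_zero hl hl) he0
  set δ := l * l * e with hδ
  have hgh' : g * mt (iSU n F q) t₁ = -(mt (iSU n F q) t₁ * g) := by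
    rw [hgdef, smul_mul_assoc, hgh, mul_smul_comm, smul_neg]
  have hσδ : σ δ = δ := by
    have h3 := congrArg (tauP B σ) hg
    rw [tauP_mul, hτg, hg, tauP_smul, tauP_one] at h3
    have h4 := smul_left_injective F (one_ne_zero_mat (F := F) hn2) h3
    exact h4.symm
  have hfix : Nat.card {t : F // σ t = t} ≤ 9 := by
    refine card_fix_le δ fun t ht ht0 => ?_
    have hσc : σ (1 - δ * t ^ 2)⁻¹ = (1 - δ * t ^ 2)⁻¹ := by
      rw [map_inv₀, map_sub, map_one, map_mul, map_pow, hσδ, ht]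
    have hdet := det_uu hg hgh' (mt_mul_inv (ι := iSU n F q) t₁) ht0
    let u₀ : Matrix.SpecialLinearGroup (Fin n) F := ⟨uu g (1 - δ * t ^ 2) t, hdet⟩
    have hstar : tauM 1 σ (uu g (1 - δ * t ^ 2) t) = uu g (1 - δ * t ^ 2) (-t) := by
      unfold uu
      have h3 : tauM 1 σ (1 + t • g) = 1 + (-t) • g := by
        rw [map_add, tauM_one, tauM_smul, hsg, ht, smul_neg, neg_smul]
      rw [tauM_smul, tauM_mul, h3, hσc]
    have hmem : u₀ ∈ Cfsg.SU n F q := by
      rw [mem_SU_star hq hJ]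
      change tauM 1 σ (uu g (1 - δ * t ^ 2) t) * uu g (1 - δ * t ^ 2) t = 1
      rw [hstar]
      exact uu_neg_mul hg ht0
    let u : ↥(Cfsg.SU n F q) := ⟨u₀, hmem⟩
    have hu : mt (iSU n F q) u = uu g (1 - δ * t ^ 2) t := rfl
    have hτu : tauP B σ (mt (iSU n F q) u) = uu g (1 - δ * t ^ 2) t := by
      rw [hu]
      unfold uu
      have h3 : tauP B σ (1 + t • g) = 1 + t • g := by
        rw [map_add, tauP_one, tauP_smul, hτg, ht]
      rw [tauP_smul, tauP_mul, h3, hσc]
    obtain ⟨u', hu', hu''⟩ := hlift u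
    have h3 : u' = u := by
      apply mt_inj hM
      rw [hu', hτu, hu]
    rw [h3] at hu''
    have hN : π u ∈ N := by rw [← hM.range]; exact ⟨u, rfl⟩
    have hA : π u ∈ A := hle _ hN (by
      conv_rhs => rw [hu'']
      group)
    exact core h2 h.normal hM hX.comm hg hδ0 hgh' ht₁ rfl ht0 hA hu
  calc Nat.card F ≤ Nat.card {t : F // σ t = t} * Nat.card {t : F // σ t = t} := card_le_sq h2 hσσ
    _ ≤ 9 * 9 := Nat.mul_le_mul hfix hfix
    _ = 81 := by norm_num

theorem graph_q_su (hF : Fintype.card F = q ^ 2) {π : ↥(Cfsg.SU n F q) →* G} (h : Loc N A 2) (hn : 3 ≤ n)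
    (hp : ¬ 2 ∣ Fintype.card F) (hM : Model N (iSU n F q) π) (hX : Extra (iSU n F q) π N A 2) {x : G} (hx2 : x ^ 2 = 1)
    (hcen : ∀ y ∈ A ⊓ N, x * y = y * x) (hle : ∀ y ∈ N, x * y = y * x → y ∈ A)
    {B : Matrix.GeneralLinearGroup (Fin n) F} {σ : F ≃+* F} (hσ : σ ≠ 1) (hτ : Ind (iSU n F q) π x (tauP B σ)) :
    Nat.card F ≤ 10 ^ 4 :=
  (graph_q_su' hF h hn hp hM hX hx2 hcen hle hσ hτ).trans (by norm_num)

end main

end Cfsg.Agent.H588.TWG
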